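import Cfsg.Agent.H598.F4.NumEven

/-!
# S2452, F4(64): the possible degrees, full range, and the four fields together (helper598)

The part prime to `2` of the order (without `m`, `n`) has a million divisors; "meet in the middle": `d' = u v`,
`u ∣ facProd LU`, `v ∣ V = facProd LV`, `w = V / v`: `(u V) ^ t ≡ w ^ t` modulo `m`. A tree contains the residues `w ^ t`.
-/

set_option autoImplicit false

namespace Cfsg.Agent.H598.F4.Num

open Cfsg.Agent.H653.Sieve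

/-- search trees -/
inductive Tr : Type
  | l : Tr
  | n : Tr → ℕ → Tr → Tr

/-- membership -/
def Tr.mem : Tr → ℕ → Bool
  | .l, _ => false
  | .n a x b, y => bif Nat.beq y x then true else bif Nat.ble y x then a.mem y else b.mem y

/-- **Meet in the middle.** -/
theorem mitm {B C V m t : ℕ} {F : ℕ → Bool} {f : ℕ → Bool} {LU LV : List (ℕ × ℕ)} (hLU : ∀ pa ∈ LU, pa.1.Prime)
    (hLV : ∀ pa ∈ LV, pa.1.Prime) (hV : facProd LV = V) (hC : V * V < C)
    (h1 : allDiv C (fun w => F (Nat.mod (Nat.pow w t) m)) LV 1 = true)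
    (h2 : allDiv B (fun u => bif F (Nat.mod (Nat.pow (Nat.mul u V) t) m) then allDiv B f LV u else true) LU 1 = true)
    {u v : ℕ} (hu : u ∣ facProd LU) (hv : v ∣ facProd LV) (hB : (u * v) * (u * v) < B)
    (ht : Nat.mod (Nat.pow (u * v) t) m = 1 % m) : f (u * v) = true := by
  have hv' : v ∣ V := hV ▸ hv
  have hV0 : V ≠ 0 := by
    rw [← hV]
    have h0 : ∀ L' : List (ℕ × ℕ), (∀ pa ∈ L', pa.1.Prime) → facProd L' ≠ 0 := by
      intro L'
      induction L' with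
      | nil => intro _; simp [facProd]
      | cons q L' ih =>
        intro hq
        rw [facProd]
        exact mul_ne_zero (pow_ne_zero _ (hq q List.mem_cons_self).ne_zero)
          (ih fun pa hpa => hq pa (List.mem_cons_of_mem _ hpa))
    exact h0 LV hLV
  have hv0 : 0 < v := Nat.pos_of_dvd_of_pos hv' (Nat.pos_of_ne_zero hV0)
  obtain ⟨w, hw⟩ := hv'
  have hwV : w ∣ facProd LV := hV ▸ ⟨v, by rw [hw, mul_comm]⟩
  have hle : u ≤ u * v := Nat.le_mul_of_pos_right u hv0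
  have h3 := allDiv_spec hLU h2 u hu (by
    rw [one_mul]
    exact lt_of_le_of_lt (Nat.mul_le_mul hle hle) hB)
  rw [one_mul] at h3
  have h4 : F (Nat.mod (Nat.pow (Nat.mul u V) t) m) = true := by
    have hwle : w ≤ V := by
      rw [hw]
      exact Nat.le_mul_of_pos_left w hv0
    have h5 := allDiv_spec hLV h1 w hwV (by
      rw [one_mul]
      exact lt_of_le_of_lt (Nat.mul_le_mul hwle hwle) hC)
    rw [one_mul] at h5
    have h6 : Nat.mod (Nat.pow (Nat.mul u V) t) m = Nat.mod (Nat.pow w t) m := by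
      show (u * V) ^ t % m = w ^ t % m
      have h7 : (u * v) ^ t ≡ 1 [MOD m] := ht
      rw [hw, ← mul_assoc, mul_pow]
      have h8 := h7.mul_right (w ^ t)
      rw [one_mul] at h8
      exact h8
    rw [h6]
    exact h5
  rw [h4, cond_true] at h3
  exact allDiv_spec hLV h3 v hv hB

theorem facProd_append : ∀ (L L' : List (ℕ × ℕ)), facProd (L ++ L') = facProd L * facProd L'
  | [], L' => by simp [facProd]
  | (p, a) :: L, L' => by
    rw [List.cons_append, facProd, facProd, facProd_append L L', mul_assoc]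

/-- **The general lemma, meet in the middle.** -/
theorem keyM {N B C V k m n t : ℕ} {F : ℕ → Bool} {l₁ l₂ l₃ : List ℕ} {LU LV : List (ℕ × ℕ)}
    (hLU : ∀ pa ∈ LU, pa.1.Prime) (hLV : ∀ pa ∈ LV, pa.1.Prime) (hV : facProd LV = V) (hC : V * V < C)
    (hN : N = (2 ^ k * (facProd LU * facProd LV)) * (m * n)) (hm : 2 < m) (hn : 2 < n)
    (ht : Nat.mod (Nat.pow 2 t) m = 1) (hte : Even t)
    (hc1 : allDiv C (fun w => F (Nat.mod (Nat.pow w t) m)) LV 1 = true)
    (hc2 : allDiv B (fun u => bif F (Nat.mod (Nat.pow (Nat.mul u V) t) m) then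
      allDiv B (leafE B k m n (m - 1) (n - 1) t l₁ l₂ l₃) LV u else true) LU 1 = true) {d : ℕ} (hd : d ∣ N)
    {a b : ℤ} (ha : a = 1 ∨ a = -1) (hb : b = 1 ∨ b = -1) (h1 : (m : ℤ) ∣ (d : ℤ) - a) (h2 : (n : ℤ) ∣ (d : ℤ) - b)
    (hB : d * d < B) : (d ∈ l₁ ∧ a = 1 ∧ b = 1) ∨ (d ∈ l₂ ∧ a = 1 ∧ b = -1) ∨ (d ∈ l₃ ∧ a = -1 ∧ b = 1) := by
  have hd' : d ∣ 2 ^ k * (facProd LU * facProd LV) := by
    rw [hN] at hd
    exact ((coprime_of ha h1).mul_right (coprime_of hb h2)).dvd_of_dvd_mul_right hd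
  obtain ⟨x, y, hx, hy, rfl⟩ := (Nat.dvd_mul).1 hd'
  obtain ⟨i, hi, rfl⟩ := (Nat.dvd_prime_pow Nat.prime_two).1 hx
  obtain ⟨u, v, hu, hv, rfl⟩ := (Nat.dvd_mul).1 hy
  rw [mul_comm (2 ^ i) (u * v)] at h1 h2 hB ⊢
  have hle : u * v ≤ u * v * 2 ^ i := Nat.le_mul_of_pos_right _ (Nat.pow_pos (by norm_num))
  have h3 := mitm hLU hLV hV hC hc1 hc2 hu hv (lt_of_le_of_lt (Nat.mul_le_mul hle hle) hB) (by
    rw [Nat.mod_eq_of_lt (show 1 < m by omega)]
    exact pow_mod_one hm ht hte ha h1)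
  exact leafE_spec hm hn ht hte hi h3 ha hb h1 h2 hB

/-! ### `q = 64` -/

def LU : List (ℕ × ℕ) := [(3, 10), (5, 4), (7, 4), (13, 4)]

def LV : List (ℕ × ℕ) := [(17, 2), (19, 2), (37, 2), (73, 2), (109, 2), (241, 2)]

/-- the residues -/
def tr : Tr :=
  (.n (.n (.n (.n (.n (.n (.n (.n (.n (.n .l 1 .l) 4331 .l) 9327 (.n (.n .l 15822 .l) 18187 .l)) 48064 (.n (.n (.n .l 54792 .l) 180326 .l) 227957 (.n .l
  271257 .l))) 334708 (.n (.n (.n (.n .l 475236 .l) 508108 .l) 520267 (.n (.n .l 521999 .l) 550342 .l)) 554006 (.n (.n (.n .l 562702 .l) 589079 .l)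
  655363 (.n .l 694100 .l)))) 736101 (.n (.n (.n (.n (.n .l 773770 .l) 799083 .l) 812507 (.n (.n .l 837224 .l) 838289 .l)) 838956 (.n (.n (.n .l 861671
  .l) 862735 .l) 910797 (.n .l 917725 .l))) 925123 (.n (.n (.n (.n .l 969721 .l) 974917 .l) 977280 (.n (.n .l 998300 .l) 1013654 .l)) 1029475 (.n (.n
  (.n .l 1073173 .l) 1110014 .l) 1121704 (.n .l 1183821 .l))))) 1222594 (.n (.n (.n (.n (.n (.n .l 1232750 .l) 1269790 .l) 1288842 (.n (.n .l 1304197
  .l) 1324546 .l)) 1409180 (.n (.n (.n .l 1442124 .l) 1455115 .l) 1455314 (.n .l 1480626 .l))) 1483260 (.n (.n (.n (.n .l 1519596 .l) 1538683 .l)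
  1577420 (.n (.n .l 1619618 .l) 1645834 .l)) 1681771 (.n (.n (.n .l 1698424 .l) 1731133 .l) 1770105 (.n .l 1771638 .l)))) 1786757 (.n (.n (.n (.n (.n
  .l 1805375 .l) 1828127 .l) 1847413 (.n (.n .l 1885281 .l) 1896738 .l)) 1924686 (.n (.n (.n .l 2021010 .l) 2068206 .l) 2094655 (.n .l 2123198 .l)))
  2183853 (.n (.n (.n (.n .l 2194679 .l) 2195977 .l) 2212864 (.n (.n .l 2215463 .l) 2234714 .l)) 2251601 (.n (.n (.n .l 2257464 .l) 2269352 .l) 2293402
  (.n .l 2308089 .l)))))) 2332139 (.n (.n (.n (.n (.n (.n (.n .l 2332372 .l) 2338868 .l) 2402716 (.n (.n .l 2418306 .l) 2447117 .l)) 2476093 (.n (.n (.n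
  .l 2482154 .l) 2485854 .l) 2569223 (.n .l 2572218 .l))) 2574852 (.n (.n (.n (.n .l 2582178 .l) 2607960 .l) 2610323 (.n (.n .l 2611657 .l) 2613589 .l))
  2681568 (.n (.n (.n .l 2703887 .l) 2727232 .l) 2734196 (.n .l 2772933 .l)))) 2804739 (.n (.n (.n (.n (.n .l 2826426 .l) 2844142 .l) 2883148 (.n (.n .l
  2893071 .l) 2896139 .l)) 2902597 (.n (.n (.n .l 2906297 .l) 2922749 .l) 2929912 (.n .l 2955224 .l))) 2987268 (.n (.n (.n (.n .l 3008249 .l) 3047022
  .l) 3079495 (.n (.n .l 3127324 .l) 3165231 .l)) 3185149 (.n (.n (.n .l 3188811 .l) 3197903 .l) 3254860 (.n .l 3293597 .l))))) 3301191 (.n (.n (.n (.n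
  (.n (.n .l 3322607 .l) 3336897 .l) 3346223 (.n (.n .l 3357916 .l) 3384960 .l)) 3387593 (.n (.n (.n .l 3400980 .l) 3417470 .l) 3426330 (.n .l 3456207
  .l))) 3464668 (.n (.n (.n (.n .l 3465298 .l) 3581578 .l) 3583076 (.n (.n .l 3585005 .l) 3588939 .l)) 3593666 (.n (.n (.n .l 3601260 .l) 3648657 .l)
  3737657 (.n .l 3766035 .l)))) 3773830 (.n (.n (.n (.n (.n .l 3804772 .l) 3808433 .l) 3811067 (.n (.n .l 3819258 .l) 3821659 .l)) 3838780 (.n (.n (.n
  .l 3861493 .l) 3900698 .l) 3939435 (.n .l 3988598 .l))) 4019773 (.n (.n (.n (.n .l 4060006 .l) 4084290 .l) 4104641 (.n .l 4123658 .l)) 4125859 (.n (.n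
  (.n .l 4143378 .l) 4158298 .l) 4168725 (.n .l 4207462 .l))))))) 4258789 (.n (.n (.n (.n (.n (.n (.n (.n .l 4268946 .l) 4278472 .l) 4294296 (.n (.n .l
  4297526 .l) 4298392 .l)) 4317209 (.n (.n (.n .l 4323703 .l) 4326337 .l) 4344055 (.n .l 4357478 .l))) 4371766 (.n (.n (.n (.n .l 4391288 .l) 4415066
  .l) 4422228 (.n (.n .l 4460965 .l) 4480053 .l)) 4508198 (.n (.n (.n .l 4514693 .l) 4519852 .l) 4542602 (.n .l 4556260 .l)))) 4584405 (.n (.n (.n (.n
  (.n .l 4594997 .l) 4623142 .l) 4673170 (.n (.n .l 4698681 .l) 4711907 .l)) 4730291 (.n (.n (.n .l 4744579 .l) 4770162 .l) 4783585 (.n .l 4806066 .l)))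
  4808899 (.n (.n (.n (.n .l 4864521 .l) 4874713 .l) 4895733 (.n (.n .l 4913450 .l) 4925809 .l)) 4936867 (.n (.n (.n .l 4938599 .l) 4942694 .l) 4959817
  (.n .l 4975604 .l))))) 4977336 (.n (.n (.n (.n (.n (.n .l 4981431 .l) 5007446 .l) 5097708 (.n (.n .l 5107036 .l) 5114597 .l)) 5138610 (.n (.n (.n .l
  5156398 .l) 5163760 .l) 5187772 (.n .l 5198833 .l))) 5210956 (.n (.n (.n (.n .l 5220247 .l) 5232570 .l) 5251622 (.n (.n .l 5258984 .l) 5264415 .l))
  5277836 (.n (.n (.n .l 5280436 .l) 5298423 .l) 5339557 (.n .l 5363572 .l)))) 5514256 (.n (.n (.n (.n (.n .l 5564717 .l) 5585465 .l) 5599790 (.n (.n .l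
  5601720 .l) 5619040 .l)) 5638527 (.n (.n (.n .l 5640457 .l) 5657777 .l) 5674267 (.n .l 5676865 .l))) 5742680 (.n (.n (.n (.n .l 5781417 .l) 5784645
  .l) 5811925 (.n .l 5903288 .l)) 5935762 (.n (.n (.n .l 5937964 .l) 5973234 .l) 6002913 (.n .l 6056173 .l)))))) 6080187 (.n (.n (.n (.n (.n (.n (.n .l
  6081917 .l) 6089045 .l) 6105066 (.n (.n .l 6122621 .l) 6134546 .l)) 6154230 (.n (.n (.n .l 6155294 .l) 6189067 .l) 6228037 (.n .l 6235831 .l)))
  6306844 (.n (.n (.n (.n .l 6360571 .l) 6403402 .l) 6415093 (.n (.n .l 6427453 .l) 6443672 .l)) 6452801 (.n (.n (.n .l 6461858 .l) 6461893 .l) 6466187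
  (.n .l 6476815 .l)))) 6489606 (.n (.n (.n (.n (.n .l 6495235 .l) 6553889 .l) 6563413 (.n (.n .l 6581401 .l) 6582665 .l)) 6584000 (.n (.n (.n .l
  6617341 .l) 6620138 .l) 6635490 (.n .l 6692646 .l))) 6702172 (.n (.n (.n (.n .l 6759129 .l) 6797866 .l) 6864980 (.n (.n .l 6868481 .l) 6870843 .l))
  6880605 (.n (.n (.n .l 6887732 .l) 7008772 .l) 7118755 (.n .l 7131942 .l))))) 7154657 (.n (.n (.n (.n (.n (.n .l 7155091 .l) 7165519 .l) 7169848 (.n
  (.n .l 7170679 .l) 7276764 .l)) 7284791 (.n (.n (.n .l 7335687 .l) 7344781 .l) 7377020 (.n .l 7415793 .l))) 7437406 (.n (.n (.n (.n .l 7447401 .l)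
  7486138 .l) 7489600 (.n (.n .l 7525775 .l) 7563643 .l)) 7581198 (.n (.n (.n .l 7602380 .l) 7619935 .l) 7631860 (.n .l 7648080 .l)))) 7674257 (.n (.n
  (.n (.n (.n .l 7690711 .l) 7693310 .l) 7717990 (.n (.n .l 7724485 .l) 7760658 .l)) 7764988 (.n (.n (.n .l 7765656 .l) 7803725 .l) 7841864 (.n .l
  7880366 .l))) 8007901 (.n (.n (.n (.n .l 8028487 .l) 8031951 .l) 8046638 (.n .l 8075649 .l)) 8089541 (.n (.n (.n .l 8094737 .l) 8104895 .l) 8225502
  (.n .l 8230662 .l)))))))) 8264239 (.n (.n (.n (.n (.n (.n (.n (.n (.n .l 8268567 .l) 8300376 .l) 8364026 (.n (.n .l 8398270 .l) 8409095 .l)) 8472745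
  (.n (.n (.n .l 8504554 .l) 8507150 .l) 8511482 (.n .l 8543289 .l))) 8544191 (.n (.n (.n (.n .l 8595049 .l) 8614967 .l) 8648741 (.n (.n .l 8649409 .l)
  8683580 .l)) 8693143 (.n (.n (.n .l 8736209 .l) 8738138 .l) 8772148 (.n .l 8798758 .l)))) 8802691 (.n (.n (.n (.n (.n .l 8830367 .l) 8936885 .l)
  8947277 (.n (.n .l 8968728 .l) 8969396 .l)) 8978453 (.n (.n (.n .l 8997505 .l) 9008133 .l) 9009666 (.n .l 9048636 .l))) 9098630 (.n (.n (.n (.n .l
  9118548 .l) 9125240 .l) 9141261 (.n (.n .l 9163778 .l) 9170741 .l)) 9244784 (.n (.n (.n .l 9325720 .l) 9335245 .l) 9335715 (.n .l 9396101 .l)))))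
  9398264 (.n (.n (.n (.n (.n (.n .l 9428340 .l) 9437434 .l) 9441564 (.n (.n .l 9449593 .l) 9487264 .l)) 9496357 (.n (.n (.n .l 9497421 .l) 9498053 .l)
  9517339 (.n .l 9526001 .l))) 9535094 (.n (.n (.n (.n .l 9589885 .l) 9602442 .l) 9603273 (.n (.n .l 9607602 .l) 9608072 .l)) 9618030 (.n (.n (.n .l
  9618464 .l) 9641179 .l) 9760055 (.n .l 9803318 .l)))) 9863541 (.n (.n (.n (.n (.n .l 9866573 .l) 9883027 .l) 9892516 (.n (.n .l 9903342 .l) 9907671
  .l)) 9908141 (.n (.n (.n .l 9921527 .l) 9924126 .l) 9945145 (.n .l 9975255 .l))) 10008794 (.n (.n (.n (.n .l 10013992 .l) 10029380 .l) 10080475 (.n .l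
  10088232 .l)) 10152983 (.n (.n (.n .l 10155780 .l) 10187623 .l) 10189121 (.n .l 10191720 .l)))))) 10257968 (.n (.n (.n (.n (.n (.n (.n .l 10277886 .l)
  10283515 .l) 10296306 (.n (.n .l 10306934 .l) 10311228 .l)) 10345668 (.n (.n (.n .l 10350000 .l) 10350233 .l) 10368186 (.n .l 10442859 .l))) 10466277
  (.n (.n (.n (.n .l 10478798 .l) 10545084 .l) 10576223 (.n (.n .l 10597676 .l) 10650500 .l)) 10652467 (.n (.n (.n .l 10684076 .l) 10706792 .l) 10716948
  (.n .l 10722813 .l)))) 10731671 (.n (.n (.n (.n (.n .l 10869833 .l) 10961196 .l) 10988042 (.n (.n .l 10988476 .l) 10991704 .l)) 10999933 (.n (.n (.n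
  .l 11026779 .l) 11049293 .l) 11081768 (.n .l 11083735 .l))) 11085468 (.n (.n (.n (.n .l 11096256 .l) 11117943 .l) 11132664 (.n (.n .l 11171401 .l)
  11187656 .l)) 11193917 (.n (.n (.n .l 11253002 .l) 11258865 .l) 11263195 (.n .l 11346097 .l))))) 11514137 (.n (.n (.n (.n (.n (.n .l 11531422 .l)
  11540551 .l) 11546612 (.n (.n .l 11568263 .l) 11574288 .l)) 11585349 (.n (.n (.n .l 11609361 .l) 11636676 .l) 11646636 (.n .l 11666085 .l))) 11774767
  (.n (.n (.n (.n .l 11791690 .l) 11797517 .l) 11812005 (.n (.n .l 11813304 .l) 11830427 .l)) 11836254 (.n (.n (.n .l 11877388 .l) 11904703 .l) 11906399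
  (.n .l 11943440 .l)))) 11947337 (.n (.n (.n (.n (.n .l 11967055 .l) 11967452 .l) 11967885 (.n (.n .l 11991068 .l) 12015515 .l)) 12024175 (.n (.n (.n
  .l 12028542 .l) 12042830 .l) 12077670 (.n .l 12130929 .l))) 12180957 (.n (.n (.n (.n .l 12188716 .l) 12191782 .l) 12219694 (.n .l 12230519 .l))
  12264923 (.n (.n (.n .l 12274918 .l) 12293068 .l) 12293538 (.n .l 12350893 .l))))))) 12381833 (.n (.n (.n (.n (.n (.n (.n (.n .l 12415643 .l) 12427532
  .l) 12429066 (.n (.n .l 12442453 .l) 12451979 .l)) 12455912 (.n (.n (.n .l 12475595 .l) 12513899 .l) 12557434 (.n .l 12565659 .l))) 12575385 (.n (.n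
  (.n (.n .l 12629743 .l) 12645530 .l) 12650094 (.n (.n .l 12658124 .l) 12807076 .l)) 12815699 (.n (.n (.n .l 12872423 .l) 12872891 .l) 12911628 (.n .l
  12964688 .l)))) 12978310 (.n (.n (.n (.n (.n .l 12978743 .l) 13005822 .l) 13010117 (.n (.n .l 13014680 .l) 13038694 .l)) 13040229 (.n (.n (.n .l
  13074201 .l) 13096950 .l) 13133124 (.n .l 13135687 .l))) 13167765 (.n (.n (.n (.n .l 13184182 .l) 13228782 .l) 13308453 (.n (.n .l 13316914 .l)
  13344193 .l)) 13346791 (.n (.n (.n .l 13355651 .l) 13372141 .l) 13386826 (.n .l 13393754 .l))))) 13415205 (.n (.n (.n (.n (.n (.n .l 13436224 .l)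
  13455043 .l) 13474961 (.n (.n .l 13479524 .l) 13518261 .l)) 13607890 (.n (.n (.n .l 13645797 .l) 13656622 .l) 13736691 (.n .l 13750113 .l))) 13785853
  (.n (.n (.n (.n .l 13792547 .l) 13794749 .l) 13809037 (.n (.n .l 13817897 .l) 13843209 .l)) 13851236 (.n (.n (.n .l 13876982 .l) 13905561 .l) 13918786
  (.n .l 13932876 .l)))) 13968382 (.n (.n (.n (.n (.n .l 14000188 .l) 14069234 .l) 14111471 (.n (.n .l 14146741 .l) 14159532 .l)) 14201535 (.n (.n (.n
  .l 14203898 .l) 14228578 .l) 14238141 (.n .l 14290064 .l))) 14297028 (.n (.n (.n (.n .l 14308053 .l) 14351786 .l) 14370405 (.n .l 14393552 .l))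
  14440982 (.n (.n (.n .l 14560257 .l) 14563521 .l) 14578442 (.n .l 14639729 .l)))))) 14679801 (.n (.n (.n (.n (.n (.n (.n .l 14753844 .l) 14827418 .l)
  14849537 (.n (.n .l 14866388 .l) 14876383 .l)) 14887172 (.n (.n (.n .l 14887840 .l) 14932636 .l) 14967746 (.n .l 14983731 .l))) 14998922 (.n (.n (.n
  (.n .l 15041753 .l) 15041988 .l) 15053444 (.n (.n .l 15074697 .l) 15085719 .l)) 15107802 (.n (.n (.n .l 15146539 .l) 15153503 .l) 15166024 (.n .l
  15169524 .l)))) 15253525 (.n (.n (.n (.n (.n .l 15273841 .l) 15292260 .l) 15292262 (.n (.n .l 15292495 .l) 15331232 .l)) 15356544 (.n (.n (.n .l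
  15411534 .l) 15445542 .l) 15464594 (.n .l 15474319 .l))) 15507263 (.n (.n (.n (.n .l 15534507 .l) 15540371 .l) 15550563 (.n (.n .l 15572646 .l)
  15589300 .l)) 15612680 (.n (.n (.n .l 15680427 .l) 15683026 .l) 15704909 (.n .l 15759467 .l))))) 15774821 (.n (.n (.n (.n (.n (.n .l 15794306 .l)
  15803400 .l) 15910386 (.n (.n .l 15911450 .l) 15950187 .l)) 15954552 (.n (.n (.n .l 15999351 .l) 16068196 .l) 16079021 (.n .l 16181408 .l))) 16184042
  (.n (.n (.n (.n .l 16210419 .l) 16212385 .l) 16219115 (.n (.n .l 16222779 .l) 16224311 .l)) 16257852 (.n (.n (.n .l 16265013 .l) 16268244 .l) 16350315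
  (.n .l 16403141 .l)))) 16406135 (.n (.n (.n (.n (.n .l 16415031 .l) 16438413 .l) 16480215 (.n (.n .l 16494468 .l) 16501864 .l)) 16540601 (.n (.n (.n
  .l 16543865 .l) 16547762 .l) 16601418 (.n .l 16678059 .l))) 16704509 (.n (.n (.n (.n .l 16717698 .l) 16725057 .l) 16738715 (.n .l 16752336 .l))
  16754934 (.n (.n (.n .l 16755169 .l) 16757299 .l) 16763794 (.n .l 16768790 .l)))))))))

theorem check_V : allDiv 275856097581044541780830375788540878506162 (fun w => tr.mem (Nat.mod (Nat.pow w 72) 16773121)) LV 1 = true := by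
  decide +kernel

theorem check_U : allDiv 8341662322968303724740416619984427798131988296797895829119430311613240486065716717546373120001
    (fun u => bif tr.mem (Nat.mod (Nat.pow (Nat.mul u 525220046819468365369) 72) 16773121) then
      allDiv 8341662322968303724740416619984427798131988296797895829119430311613240486065716717546373120001
        (leafE 8341662322968303724740416619984427798131988296797895829119430311613240486065716717546373120001 144 16773121 16777217 16773120 16777216 72 [1, 22300745198530623141535718272648361505980416] [4722366482869645213696, 332144759466773698661820003778560000] [39604409849998931748559257600]) LV u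
      else true) LU 1 = true := by
  decide +kernel

theorem num_full_sixtyfour {d : ℕ} (hd : d ∣ ordF 64) {a b : ℤ} (ha : a = 1 ∨ a = -1) (hb : b = 1 ∨ b = -1)
    (h1 : ((64 ^ 4 - 64 ^ 2 + 1 : ℕ) : ℤ) ∣ (d : ℤ) - a) (h2 : ((64 ^ 4 + 1 : ℕ) : ℤ) ∣ (d : ℤ) - b)
    (hK : d * d ≤ ordF 64) :
    (d = 1 ∧ a = 1 ∧ b = 1) ∨ (d = 64 ^ 12 ∧ a = 1 ∧ b = -1) ∨ (d = D2 64 ∧ a = -1 ∧ b = 1) ∨
      (d = D3 64 ∧ a = 1 ∧ b = -1) ∨ (d = 64 ^ 24 ∧ a = 1 ∧ b = 1) := by
  have e1 : ordF 64 = (2 ^ 144 * (facProd LU * facProd LV)) * (16773121 * 16777217) := by decide +kernel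
  have e2 : ordF 64 + 1 = 8341662322968303724740416619984427798131988296797895829119430311613240486065716717546373120001 := by decide +kernel
  have e3 : D2 64 = 39604409849998931748559257600 := by decide +kernel
  have e4 : (64 : ℕ) ^ 12 = 4722366482869645213696 := by norm_num
  have e5 : D3 64 = 332144759466773698661820003778560000 := by decide +kernel
  have e6 : (64 : ℕ) ^ 24 = 22300745198530623141535718272648361505980416 := by norm_num
  rw [e3, e4, e5, e6]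
  have h := keyM (m := 16773121) (n := 16777217) (LU := LU) (LV := LV) (t := 72) (V := 525220046819468365369) (C := 275856097581044541780830375788540878506162) (F := tr.mem) (by
    intro pa hpa
    fin_cases hpa <;> norm_num) (by
    intro pa hpa
    fin_cases hpa <;> norm_num) (by decide +kernel) (by norm_num) e1 (by norm_num) (by norm_num) (by decide +kernel)
    ⟨36, by norm_num⟩ check_V check_U hd ha hb (by exact_mod_cast h1) (by exact_mod_cast h2) (by omega)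
  simp only [List.mem_cons, List.not_mem_nil, or_false] at h
  tauto

/-- **The four fields together, exact form.** -/
theorem num_even_full {q : ℕ} (hq : q = 4 ∨ q = 8 ∨ q = 16 ∨ q = 64) {d : ℕ} (hd : d ∣ ordF q) {a b : ℤ}
    (ha : a = 1 ∨ a = -1) (hb : b = 1 ∨ b = -1) (h1 : ((q ^ 4 - q ^ 2 + 1 : ℕ) : ℤ) ∣ (d : ℤ) - a)
    (h2 : ((q ^ 4 + 1 : ℕ) : ℤ) ∣ (d : ℤ) - b) (hK : d * d ≤ ordF q) :
    (d = 1 ∧ a = 1 ∧ b = 1) ∨ (d = q ^ 12 ∧ a = 1 ∧ b = -1) ∨ (d = D2 q ∧ a = -1 ∧ b = 1) ∨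
      (d = D3 q ∧ a = 1 ∧ b = -1) ∨ (d = q ^ 24 ∧ a = 1 ∧ b = 1) := by
  rcases hq with rfl | rfl | rfl | rfl
  · exact num_full_four hd ha hb h1 h2 hK
  · exact num_full_eight hd ha hb h1 h2 hK
  · exact num_full_sixteen hd ha hb h1 h2 hK
  · exact num_full_sixtyfour hd ha hb h1 h2 hK

/-- **The four fields together, the form of `num_full`.** -/
theorem num_even {q : ℕ} (hq : q = 4 ∨ q = 8 ∨ q = 16 ∨ q = 64) {d : ℕ} (hd : d ∣ ordF q) {a b : ℤ}
    (ha : a = 1 ∨ a = -1) (hb : b = 1 ∨ b = -1) (h1 : ((q ^ 4 - q ^ 2 + 1 : ℕ) : ℤ) ∣ (d : ℤ) - a)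
    (h2 : ((q ^ 4 + 1 : ℕ) : ℤ) ∣ (d : ℤ) - b) (hK : d * d ≤ ordF q) :
    (d = 1 ∧ a = 1 ∧ b = 1) ∨ d = q ^ 12 ∨ (a * b = -1 ∧ D2 q ≤ d) ∨ (d = q ^ 24 ∧ a = 1 ∧ b = 1) := by
  have e : D2 q ≤ D3 q := by
    rcases hq with rfl | rfl | rfl | rfl <;> decide +kernel
  rcases num_even_full hq hd ha hb h1 h2 hK with h | h | h | h | h
  · exact Or.inl h
  · exact Or.inr (Or.inl h.1)
  · exact Or.inr (Or.inr (Or.inl ⟨by rw [h.2.1, h.2.2]; norm_num, h.1.ge⟩))
  · exact Or.inr (Or.inr (Or.inl ⟨by rw [h.2.1, h.2.2]; norm_num, h.1.symm ▸ e⟩))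
  · exact Or.inr (Or.inr (Or.inr h))

end Cfsg.Agent.H598.F4.Num
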