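import Cfsg.Agent.H598.F4.NumFull

/-!
# S2452, F4(q), q = 4, 8, 16: the possible degrees, full range (helper598)

`d` divides `|F4(q)|`, `d ^ 2 ≤ |F4(q)|`, `d ≡ ±1` modulo `q ^ 4 - q ^ 2 + 1` and modulo `q ^ 4 + 1`: then `d` is `1`,
`q ^ 12`, `q ^ 24`, `D2 q` or `D3 q`.

The divisors are enumerated without their powers of two: `d' ^ t ≡ 1` modulo `m`, where `2 ^ t ≡ 1` modulo `m`.
-/

set_option autoImplicit false

namespace Cfsg.Agent.H598.F4.Num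

open Cfsg.Agent.H653.Sieve

/-- the test for the part prime to `2` -/
def leafE (B k m n x y t : ℕ) (l₁ l₂ l₃ : List ℕ) (d : ℕ) : Bool :=
  bif Nat.beq (Nat.mod (Nat.pow d t) m) 1 then allPow B (tstL B m n x y l₁ l₂ l₃) 2 k d else true

theorem pow_mod_one {m t i x : ℕ} (hm : 2 < m) (ht : Nat.mod (Nat.pow 2 t) m = 1) (hte : Even t) {a : ℤ}
    (ha : a = 1 ∨ a = -1) (h1 : (m : ℤ) ∣ ((x * 2 ^ i : ℕ) : ℤ) - a) : Nat.mod (Nat.pow x t) m = 1 := by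
  show x ^ t % m = 1
  have ht' : (2 : ℤ) ^ t ≡ 1 [ZMOD m] := by
    have h2 : 2 ^ t ≡ 1 [MOD m] := by
      show 2 ^ t % m = 1 % m
      rw [Nat.mod_eq_of_lt (show 1 < m by omega)]
      exact ht
    exact_mod_cast (Int.natCast_modEq_iff.2 h2)
  have h3 : ((x : ℤ) * 2 ^ i) ≡ a [ZMOD m] := by
    refine (Int.modEq_iff_dvd.2 ?_).symm
    push_cast at h1
    exact h1
  have h4 : ((x : ℤ) * 2 ^ i) ^ t ≡ a ^ t [ZMOD m] := h3.pow t
  have h5 : a ^ t = 1 := by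
    rcases ha with rfl | rfl
    · exact one_pow t
    · exact hte.neg_one_pow
  have h6 : ((2 : ℤ) ^ i) ^ t ≡ 1 [ZMOD m] := by
    have := ht'.pow i
    rw [one_pow] at this
    rwa [← pow_mul, mul_comm i t, pow_mul]
  have h7 : (x : ℤ) ^ t ≡ 1 [ZMOD m] := by
    calc (x : ℤ) ^ t = (x : ℤ) ^ t * 1 := (mul_one _).symm
      _ ≡ (x : ℤ) ^ t * ((2 : ℤ) ^ i) ^ t [ZMOD m] := h6.symm.mul_left _
      _ = ((x : ℤ) * 2 ^ i) ^ t := (mul_pow _ _ _).symm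
      _ ≡ a ^ t [ZMOD m] := h4
      _ = 1 := h5
  have h8 : x ^ t ≡ 1 [MOD m] := by
    have : ((x ^ t : ℕ) : ℤ) ≡ ((1 : ℕ) : ℤ) [ZMOD m] := by exact_mod_cast h7
    exact Int.natCast_modEq_iff.1 this
  have h9 : x ^ t % m = 1 % m := h8
  rwa [Nat.mod_eq_of_lt (show 1 < m by omega)] at h9

theorem leafE_spec {B k m n t : ℕ} {l₁ l₂ l₃ : List ℕ} (hm : 2 < m) (hn : 2 < n)
    (ht : Nat.mod (Nat.pow 2 t) m = 1) (hte : Even t) {x i : ℕ} (hi : i ≤ k)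
    (hc : leafE B k m n (m - 1) (n - 1) t l₁ l₂ l₃ x = true)
    {a b : ℤ} (ha : a = 1 ∨ a = -1) (hb : b = 1 ∨ b = -1) (h1 : (m : ℤ) ∣ ((x * 2 ^ i : ℕ) : ℤ) - a)
    (h2 : (n : ℤ) ∣ ((x * 2 ^ i : ℕ) : ℤ) - b) (hB : (x * 2 ^ i) * (x * 2 ^ i) < B) :
    (x * 2 ^ i ∈ l₁ ∧ a = 1 ∧ b = 1) ∨ (x * 2 ^ i ∈ l₂ ∧ a = 1 ∧ b = -1) ∨ (x * 2 ^ i ∈ l₃ ∧ a = -1 ∧ b = 1) := by
  have h3 := pow_mod_one hm ht hte ha h1
  have e : Nat.beq 1 1 = true := rfl
  rw [leafE, h3, e, cond_true] at hc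
  exact tstL_spec hm hn (allPow_spec (by norm_num) hc i hi hB) ha hb h1 h2 hB

/-- **The general lemma.** -/
theorem keyE {N B k m n t : ℕ} {l₁ l₂ l₃ : List ℕ} {L : List (ℕ × ℕ)} (hL : ∀ pa ∈ L, pa.1.Prime)
    (hN : N = (2 ^ k * facProd L) * (m * n)) (hm : 2 < m) (hn : 2 < n)
    (ht : Nat.mod (Nat.pow 2 t) m = 1) (hte : Even t)
    (hc : allDiv B (leafE B k m n (m - 1) (n - 1) t l₁ l₂ l₃) L 1 = true) {d : ℕ} (hd : d ∣ N)
    {a b : ℤ} (ha : a = 1 ∨ a = -1) (hb : b = 1 ∨ b = -1) (h1 : (m : ℤ) ∣ (d : ℤ) - a) (h2 : (n : ℤ) ∣ (d : ℤ) - b)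
    (hB : d * d < B) : (d ∈ l₁ ∧ a = 1 ∧ b = 1) ∨ (d ∈ l₂ ∧ a = 1 ∧ b = -1) ∨ (d ∈ l₃ ∧ a = -1 ∧ b = 1) := by
  have hd' : d ∣ 2 ^ k * facProd L := by
    rw [hN] at hd
    exact ((coprime_of ha h1).mul_right (coprime_of hb h2)).dvd_of_dvd_mul_right hd
  obtain ⟨x, y, hx, hy, rfl⟩ := (Nat.dvd_mul).1 hd'
  obtain ⟨i, hi, rfl⟩ := (Nat.dvd_prime_pow Nat.prime_two).1 hx
  rw [mul_comm (2 ^ i) y] at h1 h2 hB ⊢
  have hle : y ≤ y * 2 ^ i := Nat.le_mul_of_pos_right y (Nat.pow_pos (by norm_num))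
  have h3 := allDiv_spec hL hc y hy (by
    rw [one_mul]
    exact lt_of_le_of_lt (Nat.mul_le_mul hle hle) hB)
  rw [one_mul] at h3
  exact leafE_spec hm hn ht hte hi h3 ha hb h1 h2 hB

/-! ### `q = 4` -/

def L4 : List (ℕ × ℕ) := [(3, 6), (5, 4), (7, 2), (13, 2), (17, 2)]

theorem check_four : allDiv 19009825523840945451297669120001
    (leafE 19009825523840945451297669120001 48 241 257 240 256 24 [1, 281474976710656] [16777216, 241473960000] [2012774400]) L4 1 = true := by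
  decide +kernel

theorem num_full_four {d : ℕ} (hd : d ∣ ordF 4) {a b : ℤ} (ha : a = 1 ∨ a = -1) (hb : b = 1 ∨ b = -1)
    (h1 : ((4 ^ 4 - 4 ^ 2 + 1 : ℕ) : ℤ) ∣ (d : ℤ) - a) (h2 : ((4 ^ 4 + 1 : ℕ) : ℤ) ∣ (d : ℤ) - b)
    (hK : d * d ≤ ordF 4) :
    (d = 1 ∧ a = 1 ∧ b = 1) ∨ (d = 4 ^ 12 ∧ a = 1 ∧ b = -1) ∨ (d = D2 4 ∧ a = -1 ∧ b = 1) ∨
      (d = D3 4 ∧ a = 1 ∧ b = -1) ∨ (d = 4 ^ 24 ∧ a = 1 ∧ b = 1) := by
  have e1 : ordF 4 = (2 ^ 48 * facProd L4) * (241 * 257) := by decide +kernel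
  have e2 : ordF 4 + 1 = 19009825523840945451297669120001 := by decide +kernel
  have e3 : D2 4 = 2012774400 := by decide +kernel
  have e4 : (4 : ℕ) ^ 12 = 16777216 := by norm_num
  have e5 : D3 4 = 241473960000 := by decide +kernel
  have e6 : (4 : ℕ) ^ 24 = 281474976710656 := by norm_num
  rw [e3, e4, e5, e6]
  have h := keyE (m := 241) (n := 257) (L := L4) (t := 24) (by
    intro pa hpa
    fin_cases hpa <;> norm_num) e1 (by norm_num) (by norm_num) (by decide +kernel) ⟨12, by norm_num⟩ check_four hd ha hb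
    (by exact_mod_cast h1) (by exact_mod_cast h2) (by omega)
  simp only [List.mem_cons, List.not_mem_nil, or_false] at h
  tauto

/-! ### `q = 8` -/

def L8 : List (ℕ × ℕ) := [(3, 10), (5, 2), (7, 4), (13, 2), (19, 2), (73, 2)]

theorem check_eight : allDiv 89916256275114328125813913131505293998004633601
    (leafE 89916256275114328125813913131505293998004633601 72 4033 4097 4032 4096 36 [1, 4722366482869645213696] [68719476736, 279291414804562944] [138537936617472]) L8 1 = true := by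
  decide +kernel

theorem num_full_eight {d : ℕ} (hd : d ∣ ordF 8) {a b : ℤ} (ha : a = 1 ∨ a = -1) (hb : b = 1 ∨ b = -1)
    (h1 : ((8 ^ 4 - 8 ^ 2 + 1 : ℕ) : ℤ) ∣ (d : ℤ) - a) (h2 : ((8 ^ 4 + 1 : ℕ) : ℤ) ∣ (d : ℤ) - b)
    (hK : d * d ≤ ordF 8) :
    (d = 1 ∧ a = 1 ∧ b = 1) ∨ (d = 8 ^ 12 ∧ a = 1 ∧ b = -1) ∨ (d = D2 8 ∧ a = -1 ∧ b = 1) ∨
      (d = D3 8 ∧ a = 1 ∧ b = -1) ∨ (d = 8 ^ 24 ∧ a = 1 ∧ b = 1) := by
  have e1 : ordF 8 = (2 ^ 72 * facProd L8) * (4033 * 4097) := by decide +kernel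
  have e2 : ordF 8 + 1 = 89916256275114328125813913131505293998004633601 := by decide +kernel
  have e3 : D2 8 = 138537936617472 := by decide +kernel
  have e4 : (8 : ℕ) ^ 12 = 68719476736 := by norm_num
  have e5 : D3 8 = 279291414804562944 := by decide +kernel
  have e6 : (8 : ℕ) ^ 24 = 4722366482869645213696 := by norm_num
  rw [e3, e4, e5, e6]
  have h := keyE (m := 4033) (n := 4097) (L := L8) (t := 36) (by
    intro pa hpa
    fin_cases hpa <;> norm_num) e1 (by norm_num) (by norm_num) (by decide +kernel) ⟨18, by norm_num⟩ check_eight hd ha hb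
    (by exact_mod_cast h1) (by exact_mod_cast h2) (by omega)
  simp only [List.mem_cons, List.not_mem_nil, or_false] at h
  tauto

/-! ### `q = 16` -/

def L16 : List (ℕ × ℕ) := [(3, 6), (5, 4), (7, 2), (13, 2), (17, 4), (241, 2), (257, 2)]

theorem check_sixteen : allDiv 409769176766486560722265887463417955475599128597720329093120001
    (leafE 409769176766486560722265887463417955475599128597720329093120001 96 65281 65537 65280 65536 48 [1, 79228162514264337593543950336] [281474976710656, 299874847600370165760000] [9187342692227481600]) L16 1 = true := by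
  decide +kernel

theorem num_full_sixteen {d : ℕ} (hd : d ∣ ordF 16) {a b : ℤ} (ha : a = 1 ∨ a = -1) (hb : b = 1 ∨ b = -1)
    (h1 : ((16 ^ 4 - 16 ^ 2 + 1 : ℕ) : ℤ) ∣ (d : ℤ) - a) (h2 : ((16 ^ 4 + 1 : ℕ) : ℤ) ∣ (d : ℤ) - b)
    (hK : d * d ≤ ordF 16) :
    (d = 1 ∧ a = 1 ∧ b = 1) ∨ (d = 16 ^ 12 ∧ a = 1 ∧ b = -1) ∨ (d = D2 16 ∧ a = -1 ∧ b = 1) ∨
      (d = D3 16 ∧ a = 1 ∧ b = -1) ∨ (d = 16 ^ 24 ∧ a = 1 ∧ b = 1) := by
  have e1 : ordF 16 = (2 ^ 96 * facProd L16) * (65281 * 65537) := by decide +kernel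
  have e2 : ordF 16 + 1 = 409769176766486560722265887463417955475599128597720329093120001 := by decide +kernel
  have e3 : D2 16 = 9187342692227481600 := by decide +kernel
  have e4 : (16 : ℕ) ^ 12 = 281474976710656 := by norm_num
  have e5 : D3 16 = 299874847600370165760000 := by decide +kernel
  have e6 : (16 : ℕ) ^ 24 = 79228162514264337593543950336 := by norm_num
  rw [e3, e4, e5, e6]
  have h := keyE (m := 65281) (n := 65537) (L := L16) (t := 48) (by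
    intro pa hpa
    fin_cases hpa <;> norm_num) e1 (by norm_num) (by norm_num) (by decide +kernel) ⟨24, by norm_num⟩ check_sixteen hd ha hb
    (by exact_mod_cast h1) (by exact_mod_cast h2) (by omega)
  simp only [List.mem_cons, List.not_mem_nil, or_false] at h
  tauto

end Cfsg.Agent.H598.F4.Num
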